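import Mathlib
import Cfsg.Agent.S0713
import Cfsg.Agent.H80.PrimeOrderPerms

/-! Subgroups of symmetric groups with elements of large prime order. -/

set_option autoImplicit false

namespace Cfsg.Agent.H52.Derange

open Equiv MulAction
open scoped Pointwise

section Cycle

variable {m s : ℕ} {X : Subgroup (Perm (Fin m))} {σ : Perm (Fin m)}

theorem isCycle_of_large (hs : s.Prime) (hσ : orderOf σ = s) (hms : m < 2 * s) :
    σ.IsCycle ∧ σ.support.card = s := by
  have h1 := H80.card_support_eq_mul hs hσ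
  have h2 : σ.support.card ≤ m := σ.support.card_le_univ.trans (Fintype.card_fin m).le
  have h3 : σ.cycleFactorsFinset.card ≠ 0 := by
    intro h
    rw [h, mul_zero, Finset.card_eq_zero, Perm.support_eq_empty_iff] at h1
    rw [h1, orderOf_one] at hσ
    exact hs.one_lt.ne hσ
  have h4 : σ.cycleFactorsFinset.card = 1 := by
    by_contra h
    have : s * 2 ≤ s * σ.cycleFactorsFinset.card := Nat.mul_le_mul_left s (by omega)
    omega
  rw [h4, mul_one] at h1
  refine ⟨Perm.card_cycleType_eq_one.1 ?_, h1⟩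
  rw [Perm.cycleType_def, Multiset.card_map]
  exact h4

theorem isPreprimitive_of_large (hX : IsPretransitive X (Fin m)) (hs : s.Prime)
    (hσ : orderOf σ = s) (hmem : σ ∈ X) (hms : m < 2 * s) : IsPreprimitive X (Fin m) := by
  classical
  obtain ⟨hcyc, hcard⟩ := isCycle_of_large hs hσ hms
  haveI := hX
  refine { isTrivialBlock_of_isBlock := fun {B} hB => ?_ }
  by_contra hnt
  simp only [IsTrivialBlock, not_or] at hnt
  obtain ⟨hsub, huniv⟩ := hnt
  rw [Set.not_subsingleton_iff] at hsub
  have hne : B.Nonempty := hsub.nonempty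
  have hprod := hB.ncard_block_mul_ncard_orbit_eq hne
  rw [Nat.card_eq_fintype_card, Fintype.card_fin] at hprod
  have ha : 2 ≤ B.ncard := (Set.one_lt_ncard_iff_nontrivial).2 hsub
  have hb : 2 ≤ (orbit X B).ncard := by
    by_contra hb
    have hBm : B.ncard = m := by
      rcases (show (orbit X B).ncard = 0 ∨ (orbit X B).ncard = 1 by omega) with h | h <;> rw [h] at hprod
      · simp only [mul_zero] at hprod
        have : B.ncard ≤ m := by
          simpa using Set.ncard_le_ncard (Set.subset_univ B) Set.finite_univ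
        omega
      · simpa using hprod
    exact huniv (Set.eq_of_subset_of_ncard_le (Set.subset_univ B)
      (by rw [Set.ncard_univ, Nat.card_eq_fintype_card, Fintype.card_fin, hBm]) Set.finite_univ)
  have hbs : (orbit X B).ncard < s := by
    by_contra h
    have : 2 * s ≤ B.ncard * (orbit X B).ncard := Nat.mul_le_mul ha (not_lt.1 h)
    omega
  have has : B.ncard < s := by
    by_contra h
    have : s * 2 ≤ B.ncard * (orbit X B).ncard := Nat.mul_le_mul (not_lt.1 h) hb
    omega
  obtain ⟨x, hx⟩ : ∃ x, σ x ≠ x := by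
    obtain ⟨x, hx⟩ := Finset.card_pos.1 (hcard ▸ hs.pos)
    exact ⟨x, Perm.mem_support.1 hx⟩
  obtain ⟨y, hy⟩ := hne
  obtain ⟨g', hg'⟩ := MulAction.exists_smul_eq X y x
  set C : Set (Fin m) := g' • B with hC
  have hxC : x ∈ C := by rw [← hg']; exact Set.smul_mem_smul_set hy
  have hCcard : C.ncard = B.ncard := Set.ncard_smul_set g' B
  have hCorb : orbit X C = orbit X B := MulAction.orbit_smul g' B
  let g : X := ⟨σ, hmem⟩
  have hfix : g • C = C := by
    have horb := MulAction.card_orbit_mul_card_stabilizer_eq_card_group (Subgroup.zpowers g) C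
    rw [← Nat.card_eq_fintype_card, ← Nat.card_eq_fintype_card, ← Nat.card_eq_fintype_card,
      Nat.card_zpowers, Subgroup.orderOf_mk, hσ] at horb
    have hle : Nat.card (orbit (Subgroup.zpowers g) C) ≤ (orbit X B).ncard := by
      rw [← hCorb, Nat.card_coe_set_eq]
      refine Set.ncard_le_ncard ?_ (Set.toFinite _)
      rintro _ ⟨k, rfl⟩
      exact ⟨(k : X), rfl⟩
    rcases (Nat.dvd_prime hs).1 (Dvd.intro _ horb) with h | h
    · rw [Nat.card_eq_one_iff_unique] at h
      have := h.1
      exact congrArg Subtype.val (Subsingleton.elim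
        (⟨g • C, ⟨⟨g, Subgroup.mem_zpowers g⟩, rfl⟩⟩ : orbit (Subgroup.zpowers g) C)
        ⟨C, MulAction.mem_orbit_self C⟩)
    · omega
  have hpow : ∀ i : ℕ, (σ ^ i) x ∈ C := by
    intro i
    induction i with
    | zero => simpa using hxC
    | succ i ih =>
      rw [pow_succ', Perm.mul_apply, ← hfix]
      exact Set.smul_mem_smul_set (a := g) ih
  have hsub' : (σ.support : Set (Fin m)) ⊆ C := by
    intro z hz
    obtain ⟨i, hi⟩ := hcyc.exists_pow_eq hx (Perm.mem_support.1 hz)
    rw [← hi]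
    exact hpow i
  have h := Set.ncard_le_ncard hsub' (Set.toFinite _)
  rw [Set.ncard_coe_finset, hcard, hCcard] at h
  omega

theorem alternatingGroup_le_of_large (hX : IsPretransitive X (Fin m)) (hs : s.Prime)
    (hσ : orderOf σ = s) (hmem : σ ∈ X) (hms : m < 2 * s) (hm : 5 ≤ m) (hsm : s + 3 ≤ m) :
    alternatingGroup (Fin m) ≤ X := by
  obtain ⟨hcyc, hcard⟩ := isCycle_of_large hs hσ hms
  exact Cfsg.Agent.S0713.result X (isPreprimitive_of_large hX hs hσ hmem hms) hs
    (by rwa [Fintype.card_fin]) (by rwa [Fintype.card_fin]) hcyc hcard hmem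

end Cycle

section Small

theorem orderOf_ne_mul {n p q : ℕ} (hp : p.Prime) (hq : q.Prime) (hpq : p ≠ q) (hn : n < p + q)
    (x : Perm (Fin n)) : orderOf x ≠ p * q := by
  intro hx
  have hsum : x.cycleType.sum ≤ n := by
    rw [Perm.sum_cycleType]
    exact x.support.card_le_univ.trans (Fintype.card_fin n).le
  have hmem : ∀ u v : ℕ, u.Prime → v.Prime → u ≠ v → orderOf x = u * v →
      ∃ a ∈ x.cycleType, u ∣ a := by
    intro u v hu hv huv he
    by_contra hno
    push Not at hno
    have : x.cycleType.lcm ∣ v := Multiset.lcm_dvd.2 fun a ha => by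
      have h1 : a ∣ u * v := he ▸ Perm.dvd_of_mem_cycleType ha
      exact (Nat.Coprime.dvd_of_dvd_mul_left ((hu.coprime_iff_not_dvd.2 (hno a ha)).symm) h1)
    rw [Perm.lcm_cycleType, he] at this
    exact hu.ne_one (by
      have h2 : u ∣ v := (dvd_mul_right u v).trans this
      exact absurd ((Nat.prime_dvd_prime_iff_eq hu hv).1 h2) huv)
  obtain ⟨a, ha, hpa⟩ := hmem p q hp hq hpq hx
  obtain ⟨b, hb, hqb⟩ := hmem q p hq hp hpq.symm (by rw [hx, mul_comm])
  have ha0 : 0 < a := by have := Perm.two_le_of_mem_cycleType ha; omega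
  have hb0 : 0 < b := by have := Perm.two_le_of_mem_cycleType hb; omega
  obtain ⟨l, hl⟩ := Multiset.exists_cons_of_mem ha
  rw [hl, Multiset.sum_cons] at hsum
  rw [hl, Multiset.mem_cons] at hb
  rcases hb with rfl | hb
  · have := Nat.le_of_dvd ha0 (Nat.Coprime.mul_dvd_of_dvd_of_dvd
      ((Nat.coprime_primes hp hq).2 hpq) hpa hqb)
    have := Nat.add_le_mul hp.two_le hq.two_le
    omega
  · have := Nat.le_of_dvd ha0 hpa
    have := Nat.le_of_dvd hb0 hqb
    have := Multiset.le_sum_of_mem hb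
    omega

variable {K : Type*} [Group K] [Finite K]

theorem card_sylow_eq_of_sq_not_dvd {p : ℕ} [hp : Fact p.Prime] (hpK : p ∣ Nat.card K)
    (hp2 : ¬ p ^ 2 ∣ Nat.card K) (P : Sylow p K) : Nat.card P = p := by
  rw [P.card_eq_multiplicity]
  have h1 : 1 ≤ (Nat.card K).factorization p :=
    hp.out.dvd_iff_one_le_factorization Nat.card_pos.ne' |>.1 hpK
  have h2 : (Nat.card K).factorization p < 2 := by
    by_contra h
    exact hp2 ((hp.out.pow_dvd_iff_le_factorization Nat.card_pos.ne').2 (not_lt.1 h))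
  rw [show (Nat.card K).factorization p = 1 by omega, pow_one]

theorem card_sylow_dvd_div {p : ℕ} [hp : Fact p.Prime] (hpK : p ∣ Nat.card K)
    (hp2 : ¬ p ^ 2 ∣ Nat.card K) : Nat.card (Sylow p K) ∣ Nat.card K / p := by
  obtain ⟨P⟩ : Nonempty (Sylow p K) := inferInstance
  have h := P.card_dvd_index
  have h1 := Subgroup.card_mul_index (P : Subgroup K)
  rw [card_sylow_eq_of_sq_not_dvd hpK hp2 P] at h1
  rwa [← h1, Nat.mul_div_cancel_left _ hp.out.pos]

/-- If elements of order `p * q` are absent, the `q`-part of the order divides the number of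
Sylow `p`-subgroups. -/
theorem dvd_card_sylow {n p q e : ℕ} [hp : Fact p.Prime] (hq : q.Prime) (φ : K →* Perm (Fin n))
    (hφ : Function.Injective φ) (hpK : p ∣ Nat.card K) (hp2 : ¬ p ^ 2 ∣ Nat.card K)
    (hn : n < p + q) (hpq : ¬ q ∣ p - 1) (hne : p ≠ q) (hqe : q ^ e ∣ Nat.card K) :
    q ^ e ∣ Nat.card (Sylow p K) := by
  classical
  haveI := Fact.mk hq
  obtain ⟨P⟩ : Nonempty (Sylow p K) := inferInstance
  set N := Subgroup.normalizer ((P : Subgroup K) : Set K) with hN
  have h1 : Nat.card (Sylow p K) * Nat.card N = Nat.card K := by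
    rw [P.card_eq_index_normalizer, mul_comm]
    exact Subgroup.card_mul_index _
  have h2 : ¬ q ∣ Nat.card N := by
    intro hqN
    obtain ⟨y, hy⟩ := exists_prime_orderOf_dvd_card' q hqN
    have hPc := card_sylow_eq_of_sq_not_dvd hpK hp2 P
    obtain ⟨⟨x, hxP⟩, hx⟩ := (isCyclic_of_prime_card hPc).exists_ofOrder_eq_natCard
    rw [Subgroup.orderOf_mk, hPc] at hx
    haveI : IsCyclic ↥(P : Subgroup K) := isCyclic_of_prime_card hPc
    have hw : orderOf ((P : Subgroup K).normalizerMonoidHom y) = 1 := by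
      have ha : orderOf ((P : Subgroup K).normalizerMonoidHom y) ∣ q := hy ▸ orderOf_map_dvd _ _
      have hb : orderOf ((P : Subgroup K).normalizerMonoidHom y) ∣ p - 1 := by
        refine (orderOf_dvd_natCard _).trans (dvd_of_eq ?_)
        rw [IsCyclic.card_mulAut, hPc, Nat.totient_prime hp.out]
      rcases (Nat.dvd_prime hq).1 ha with h | h
      · exact h
      · exact absurd (h ▸ hb) hpq
    rw [orderOf_eq_one_iff] at hw
    have hc0 := congrArg Subtype.val (DFunLike.congr_fun hw (⟨x, hxP⟩ : ↥(P : Subgroup K)))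
    have hc : (y : K) * x * (y : K)⁻¹ = x := hc0
    have hcomm : Commute (y : K) x := mul_inv_eq_iff_eq_mul.1 hc
    have hyK : orderOf (y : K) = q := by rw [Subgroup.orderOf_coe, hy]
    have hord : orderOf ((y : K) * x) = q * p := by
      rw [hcomm.orderOf_mul_eq_mul_orderOf_of_coprime (by
        rw [hyK, hx]; exact (Nat.coprime_primes hq hp.out).2 hne.symm), hyK, hx]
    exact orderOf_ne_mul hp.out hq hne hn (φ ((y : K) * x))
      (by rw [orderOf_injective φ hφ, hord, mul_comm])
  exact ((hq.coprime_iff_not_dvd.2 h2).pow_left e).dvd_of_dvd_mul_right (h1 ▸ hqe)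

theorem card_orderOf_ge {p : ℕ} [hp : Fact p.Prime] (hpK : p ∣ Nat.card K)
    (hp2 : ¬ p ^ 2 ∣ Nat.card K) :
    Nat.card (Sylow p K) * (p - 1) ≤ Nat.card {x : K // orderOf x = p} := by
  classical
  haveI := Fintype.ofFinite (Sylow p K)
  have hord : ∀ (Q : Sylow p K) (x : ↥(Q : Subgroup K)), x ≠ 1 → orderOf (x : K) = p := by
    intro Q x hx
    have h : orderOf x ∣ p := (orderOf_dvd_natCard x).trans (dvd_of_eq (card_sylow_eq_of_sq_not_dvd hpK hp2 Q))
    rcases (Nat.dvd_prime hp.out).1 h with h | h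
    · exact absurd (orderOf_eq_one_iff.1 h) hx
    · rwa [Subgroup.orderOf_coe]
  let f : (Σ Q : Sylow p K, {x : ↥(Q : Subgroup K) // x ≠ 1}) → {x : K // orderOf x = p} :=
    fun a => ⟨(a.2.1 : K), hord a.1 a.2.1 a.2.2⟩
  have hinj : Function.Injective f := by
    rintro ⟨Q, x, hx⟩ ⟨Q', x', hx'⟩ h
    have he : (x : K) = x' := congrArg Subtype.val h
    have hz : ∀ (R : Sylow p K) (z : ↥(R : Subgroup K)), z ≠ 1 →
        Subgroup.zpowers (z : K) = (R : Subgroup K) := by
      intro R z hz
      refine Subgroup.eq_of_le_of_card_ge (Subgroup.zpowers_le.2 z.2) ?_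
      rw [Nat.card_zpowers, hord R z hz, card_sylow_eq_of_sq_not_dvd hpK hp2 R]
    obtain rfl : Q = Q' := Sylow.ext (by rw [← hz Q x hx, ← hz Q' x' hx', he])
    obtain rfl : x = x' := Subtype.ext he
    rfl
  refine le_trans (le_of_eq ?_) (Nat.card_le_card_of_injective f hinj)
  rw [Nat.card_sigma, Finset.sum_congr rfl (g := fun _ => p - 1) fun Q _ => ?_, Finset.sum_const,
    Finset.card_univ, ← Nat.card_eq_fintype_card, smul_eq_mul]
  haveI := Fintype.ofFinite ↥(Q : Subgroup K)
  rw [Nat.card_eq_fintype_card, Fintype.card_subtype_compl, Fintype.card_subtype_eq,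
    ← Nat.card_eq_fintype_card, card_sylow_eq_of_sq_not_dvd hpK hp2 Q]

theorem card_orderOf_sum_le {a b : ℕ} (hab : a ≠ b) :
    Nat.card {x : K // orderOf x = a} + Nat.card {x : K // orderOf x = b} ≤ Nat.card K := by
  rw [← Nat.card_sum]
  refine Nat.card_le_card_of_injective (Sum.elim Subtype.val Subtype.val) ?_
  rintro (⟨x, hx⟩ | ⟨x, hx⟩) (⟨y, hy⟩ | ⟨y, hy⟩) h <;> simp only [Sum.elim_inl, Sum.elim_inr] at h <;>
    subst h
  · rfl
  · exact absurd (hx.symm.trans hy) hab
  · exact absurd (hy.symm.trans hx) hab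
  · rfl

theorem card_orderOf_sum_three_le {a b c : ℕ} (hab : a ≠ b) (hac : a ≠ c) (hbc : b ≠ c) :
    Nat.card {x : K // orderOf x = a} + Nat.card {x : K // orderOf x = b} +
      Nat.card {x : K // orderOf x = c} ≤ Nat.card K := by
  rw [← Nat.card_sum, ← Nat.card_sum]
  refine Nat.card_le_card_of_injective (Sum.elim (Sum.elim Subtype.val Subtype.val) Subtype.val) ?_
  rintro ((⟨x, hx⟩ | ⟨x, hx⟩) | ⟨x, hx⟩) ((⟨y, hy⟩ | ⟨y, hy⟩) | ⟨y, hy⟩) h <;>
    simp only [Sum.elim_inl, Sum.elim_inr] at h <;> subst h <;>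
    first
      | rfl
      | (exfalso; omega)

end Small

section Alternating

theorem card_alternatingGroup_fin (n : ℕ) (hn : 2 ≤ n) :
    2 * Nat.card (alternatingGroup (Fin n)) = n.factorial := by
  haveI : Nontrivial (Fin n) := Fin.nontrivial_iff_two_le.2 hn
  rw [Nat.card_eq_fintype_card, two_mul_card_alternatingGroup, Fintype.card_perm, Fintype.card_fin]

theorem eq_top_of_index_lt {n : ℕ} (hn : 5 ≤ n) (K : Subgroup (alternatingGroup (Fin n)))
    (hK : K.index < n) : K = ⊤ := by
  haveI := alternatingGroup.isSimpleGroup (α := Fin n) (by rw [Nat.card_eq_fintype_card, Fintype.card_fin]; exact hn)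
  rcases (K.normalCore_normal).eq_bot_or_eq_top with h | h
  · exfalso
    have hinj : Function.Injective
        (MulAction.toPermHom (alternatingGroup (Fin n)) (alternatingGroup (Fin n) ⧸ K)) := by
      rw [← MonoidHom.ker_eq_bot_iff, ← Subgroup.normalCore_eq_ker, h]
    have h1 := Nat.card_le_card_of_injective _ hinj
    rw [Nat.card_perm] at h1
    have h2 : K.index.factorial ≤ (n - 1).factorial := Nat.factorial_le (by omega)
    have h3 := card_alternatingGroup_fin n (by omega)
    have h4 : n.factorial = n * (n - 1).factorial := (Nat.mul_factorial_pred (by omega)).symm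
    have h5 : 5 * (n - 1).factorial ≤ n * (n - 1).factorial := Nat.mul_le_mul_right _ hn
    have h6 := Nat.factorial_pos (n - 1)
    rw [← Subgroup.index_eq_card] at h1
    omega
  · exact top_le_iff.1 (h ▸ K.normalCore_le)

theorem index_facts {n N : ℕ} (hn : 5 ≤ n) (hN : n.factorial = 2 * N)
    (K : Subgroup (alternatingGroup (Fin n))) (hK : K ≠ ⊤) :
    Nat.card K * K.index = N ∧ n ≤ K.index := by
  refine ⟨?_, not_lt.1 fun h => hK (eq_top_of_index_lt hn K h)⟩
  have := card_alternatingGroup_fin n (by omega)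
  rw [Subgroup.card_mul_index]
  omega

theorem alt_five (K : Subgroup (alternatingGroup (Fin 5))) (hK : K ≠ ⊤) (h3 : 3 ∣ Nat.card K) :
    ¬ 5 ∣ Nat.card K := by
  intro h5
  obtain ⟨h1, h2⟩ := index_facts (N := 60) le_rfl rfl K hK
  obtain ⟨j, hj⟩ := Nat.Coprime.mul_dvd_of_dvd_of_dvd (show Nat.Coprime 3 5 by norm_num) h3 h5
  have hj0 : 1 ≤ j := Nat.one_le_iff_ne_zero.2 fun h => (Nat.card_pos (α := K)).ne' (by rw [hj, h, mul_zero])
  have : 15 * 1 * 5 ≤ 15 * j * K.index := Nat.mul_le_mul (Nat.mul_le_mul_left 15 hj0) h2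
  rw [hj, show 3 * 5 * j = 15 * j by norm_num] at h1
  omega

theorem alt_seven (K : Subgroup (alternatingGroup (Fin 7))) (hK : K ≠ ⊤) (h5 : 5 ∣ Nat.card K) :
    ¬ 7 ∣ Nat.card K := by
  intro h7
  haveI := Fact.mk Nat.prime_three
  haveI : Fact (Nat.Prime 5) := ⟨by norm_num⟩
  haveI : Fact (Nat.Prime 7) := ⟨by norm_num⟩
  obtain ⟨h1, h2⟩ := index_facts (N := 2520) (by norm_num) rfl K hK
  have hcd : (Nat.card K) ∣ 2520 := Dvd.intro _ h1
  have hle : (Nat.card K) ≤ 360 := by
    have : (Nat.card K) * 7 ≤ (Nat.card K) * K.index := Nat.mul_le_mul_left (Nat.card K) h2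
    omega
  let φ : K →* Perm (Fin 7) := (alternatingGroup (Fin 7)).subtype.comp K.subtype
  have hφ : Function.Injective φ := fun a b h => Subtype.ext (Subtype.ext h)
  have hsq5 : ¬ 5 ^ 2 ∣ (Nat.card K) := fun h => absurd (h.trans hcd) (by norm_num)
  have hsq7 : ¬ 7 ^ 2 ∣ (Nat.card K) := fun h => absurd (h.trans hcd) (by norm_num)
  have e5 := card_sylow_modEq_one 5 K
  have e7 := card_sylow_modEq_one 7 K
  have e3 := card_sylow_modEq_one 3 K
  have d5 := card_sylow_dvd_div (K := K) h5 hsq5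
  have d7 := card_sylow_dvd_div (K := K) h7 hsq7
  have a57 : 7 ∣ Nat.card (Sylow 5 K) := by
    simpa using dvd_card_sylow (e := 1) (by norm_num) φ hφ h5 hsq5 (by norm_num) (by norm_num) (by norm_num) (by simpa using h7)
  have a75 : 5 ∣ Nat.card (Sylow 7 K) := by
    simpa using dvd_card_sylow (e := 1) (by norm_num) φ hφ h7 hsq7 (by norm_num) (by norm_num) (by norm_num) (by simpa using h5)
  have a53 : ∀ e, 3 ^ e ∣ (Nat.card K) → 3 ^ e ∣ Nat.card (Sylow 5 K) := fun e he =>
    dvd_card_sylow Nat.prime_three φ hφ h5 hsq5 (by norm_num) (by norm_num) (by norm_num) he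
  obtain ⟨j, hj⟩ := Nat.Coprime.mul_dvd_of_dvd_of_dvd (show Nat.Coprime 5 7 by norm_num) h5 h7
  rw [hj] at hcd hle d5 d7
  have hjd : j ∣ 72 := (Nat.mul_dvd_mul_iff_left (by norm_num : 0 < 35)).1 hcd
  have hj10 : j ≤ 10 := by omega
  rw [show 5 * 7 * j / 5 = 7 * j by omega] at d5
  rw [show 5 * 7 * j / 7 = 5 * j by omega] at d7
  have hj0 : 0 < j := Nat.pos_of_ne_zero fun h => by subst h; exact (Nat.card_pos (α := K)).ne' (by rw [hj])
  have b5 := Nat.le_of_dvd (by omega) d5
  have b7 := Nat.le_of_dvd (by omega) d7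
  unfold Nat.ModEq at e5 e7 e3
  have hjc : j = 1 ∨ j = 2 ∨ j = 3 ∨ j = 4 ∨ j = 6 ∨ j = 8 ∨ j = 9 := by
    interval_cases j <;> first | omega | (exfalso; revert hjd; norm_num)
  rcases hjc with rfl | rfl | rfl | rfl | rfl | rfl | rfl
  · omega
  · omega
  · have hn : Nat.card (Sylow 5 K) = 21 := by omega
    have h3 : 3 ∣ (Nat.card K) := by omega
    have hsq3 : ¬ 3 ^ 2 ∣ (Nat.card K) := by rw [hj]; norm_num
    have d3 := card_sylow_dvd_div (K := K) h3 hsq3
    have a3 := dvd_card_sylow (e := 1) (p := 3) (q := 5) (by norm_num) φ hφ h3 hsq3 (by norm_num) (by norm_num) (by norm_num) (by simpa using h5)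
    have a3' := dvd_card_sylow (e := 1) (p := 3) (q := 7) (by norm_num) φ hφ h3 hsq3 (by norm_num) (by norm_num) (by norm_num) (by simpa using h7)
    rw [hj, show 5 * 7 * 3 / 3 = 35 by norm_num] at d3
    have := Nat.le_of_dvd (by norm_num) d3
    rw [pow_one] at a3 a3'
    omega
  · have : Nat.card (Sylow 5 K) = 21 := by omega
    rw [this] at d5
    norm_num at d5
  · have h3 : 3 ∣ (Nat.card K) := by omega
    have hsq3 : ¬ 3 ^ 2 ∣ (Nat.card K) := by rw [hj]; norm_num
    have d3 := card_sylow_dvd_div (K := K) h3 hsq3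
    have a3 := dvd_card_sylow (e := 1) (p := 3) (q := 5) (by norm_num) φ hφ h3 hsq3 (by norm_num) (by norm_num) (by norm_num) (by simpa using h5)
    have a3' := dvd_card_sylow (e := 1) (p := 3) (q := 7) (by norm_num) φ hφ h3 hsq3 (by norm_num) (by norm_num) (by norm_num) (by simpa using h7)
    rw [hj, show 5 * 7 * 6 / 3 = 70 by norm_num] at d3
    have := Nat.le_of_dvd (by norm_num) d3
    have c3 := card_orderOf_ge (K := K) h3 hsq3
    have c5 := card_orderOf_ge (K := K) h5 hsq5
    have c7 := card_orderOf_ge (K := K) h7 hsq7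
    have := card_orderOf_sum_three_le (K := K) (show 3 ≠ 5 by norm_num) (show 3 ≠ 7 by norm_num) (show 5 ≠ 7 by norm_num)
    omega
  · have h := d7
    have : Nat.card (Sylow 7 K) = 15 := by omega
    rw [this] at h
    norm_num at h
  · have := a53 2 (by omega)
    omega

/-- A subgroup of the alternating group of degree 6 of order divisible by 5 has order prime to 3
or index 6. -/
theorem alt_six (K : Subgroup (alternatingGroup (Fin 6))) (hK : K ≠ ⊤) (h5 : 5 ∣ Nat.card K) :
    (¬ 3 ∣ Nat.card K ∧ 3 ∣ K.index) ∨ K.index = 6 := by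
  haveI := Fact.mk Nat.prime_three
  haveI : Fact (Nat.Prime 5) := ⟨by norm_num⟩
  obtain ⟨h1, h2⟩ := index_facts (N := 360) (by norm_num) rfl K hK
  by_cases h3 : 3 ∣ (Nat.card K)
  swap
  · refine Or.inl ⟨h3, ?_⟩
    have : 3 ∣ (Nat.card K) * K.index := h1 ▸ by norm_num
    exact (Nat.prime_three.dvd_mul.1 this).resolve_left h3
  right
  have hcd : (Nat.card K) ∣ 360 := Dvd.intro _ h1
  have hle : (Nat.card K) ≤ 60 := by
    have : (Nat.card K) * 6 ≤ (Nat.card K) * K.index := Nat.mul_le_mul_left (Nat.card K) h2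
    omega
  let φ : K →* Perm (Fin 6) := (alternatingGroup (Fin 6)).subtype.comp K.subtype
  have hφ : Function.Injective φ := fun a b h => Subtype.ext (Subtype.ext h)
  have hsq5 : ¬ 5 ^ 2 ∣ (Nat.card K) := fun h => absurd (h.trans hcd) (by norm_num)
  have e5 := card_sylow_modEq_one 5 K
  have e3 := card_sylow_modEq_one 3 K
  have d5 := card_sylow_dvd_div (K := K) h5 hsq5
  have a5 : ∀ e, 3 ^ e ∣ (Nat.card K) → 3 ^ e ∣ Nat.card (Sylow 5 K) := fun e he =>
    dvd_card_sylow Nat.prime_three φ hφ h5 hsq5 (by norm_num) (by norm_num) (by norm_num) he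
  have a51 := a5 1 (by simpa using h3)
  obtain ⟨j, hj⟩ := Nat.Coprime.mul_dvd_of_dvd_of_dvd (show Nat.Coprime 3 5 by norm_num) h3 h5
  unfold Nat.ModEq at e5 e3
  rw [hj, show 3 * 5 * j / 5 = 3 * j by omega] at d5
  rw [hj] at h1 hle hcd
  have hj0 : 0 < j := Nat.pos_of_ne_zero fun h => by subst h; omega
  have := Nat.le_of_dvd (by omega) d5
  have hj4 : j ≤ 4 := by omega
  interval_cases j
  · omega
  · exfalso
    have hsq3 : ¬ 3 ^ 2 ∣ (Nat.card K) := by rw [hj]; norm_num
    have a3 := dvd_card_sylow (e := 1) (p := 3) (q := 5) (by norm_num) φ hφ h3 hsq3 (by norm_num) (by norm_num) (by norm_num) (by simpa using h5)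
    have d3 := card_sylow_dvd_div (K := K) h3 hsq3
    rw [hj, show 3 * 5 * 2 / 3 = 10 by norm_num] at d3
    have := Nat.le_of_dvd (by norm_num) d3
    have c3 := card_orderOf_ge (K := K) h3 hsq3
    have c5 := card_orderOf_ge (K := K) h5 hsq5
    have := card_orderOf_sum_le (K := K) (show 3 ≠ 5 by norm_num)
    omega
  · exfalso
    have := a5 2 (by rw [hj]; norm_num)
    omega
  · omega

/-- If a subgroup of the alternating group of degree 6 has index 6, some element of order 3 has
no conjugate in it. -/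
theorem alt_six_index_six (K : Subgroup (alternatingGroup (Fin 6))) (hK : K.index = 6) :
    ∃ g : alternatingGroup (Fin 6), orderOf g = 3 ∧ ∀ t, t⁻¹ * g * t ∉ K := by
  classical
  haveI := alternatingGroup.isSimpleGroup (α := Fin 6) (by simp)
  let e : (↥(alternatingGroup (Fin 6)) ⧸ K) ≃ Fin 6 := (Finite.equivFin (↥(alternatingGroup (Fin 6)) ⧸ K)).trans (finCongr (by rw [← Subgroup.index_eq_card, hK]))
  let f : ↥(alternatingGroup (Fin 6)) →* Perm (Fin 6) := e.permCongrHom.toMonoidHom.comp (MulAction.toPermHom ↥(alternatingGroup (Fin 6)) (↥(alternatingGroup (Fin 6)) ⧸ K))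
  have hinj : Function.Injective f := by
    refine e.permCongrHom.injective.comp ?_
    rw [← MonoidHom.ker_eq_bot_iff, ← Subgroup.normalCore_eq_ker]
    refine (K.normalCore_normal).eq_bot_or_eq_top.resolve_right fun h => ?_
    have : K = ⊤ := top_le_iff.1 (h ▸ K.normalCore_le)
    rw [this, Subgroup.index_top] at hK
    norm_num at hK
  have hidx : f.range.index = 2 := by
    have h := Subgroup.card_mul_index f.range
    rw [← Nat.card_congr (MonoidHom.ofInjective hinj).toEquiv, Nat.card_perm] at h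
    have h' := card_alternatingGroup_fin 6 (by norm_num)
    simp only [Nat.card_eq_fintype_card, Fintype.card_fin] at h h'
    have e720 : Nat.factorial 6 = 720 := rfl
    rw [e720] at h h'
    have h360 : Fintype.card ↥(alternatingGroup (Fin 6)) = 360 := by omega
    rw [h360] at h
    omega
  have hrange := Perm.eq_alternatingGroup_of_index_eq_two hidx
  obtain ⟨σ, hσ, hsupp⟩ := H80.exists_perm_replicate (α := Fin 6) Nat.prime_three one_le_two (by simp)
  have hsign : σ ∈ alternatingGroup (Fin 6) := by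
    rw [Perm.mem_alternatingGroup]
    have h : Perm.sign σ ^ 3 = 1 := by rw [← map_pow, ← hσ, pow_orderOf_eq_one, map_one]
    rcases Int.units_eq_one_or (Perm.sign σ) with h' | h'
    · exact h'
    · rw [h'] at h; exact absurd h (by decide)
  rw [← hrange] at hsign
  obtain ⟨g, hg⟩ := hsign
  refine ⟨g, by rw [← orderOf_injective f hinj, hg, hσ], fun t ht => ?_⟩
  have hfix : g • (QuotientGroup.mk t : ↥(alternatingGroup (Fin 6)) ⧸ K) = QuotientGroup.mk t := by
    rw [MulAction.Quotient.smul_mk, QuotientGroup.eq, smul_eq_mul]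
    have := K.inv_mem ht
    simpa [mul_assoc] using this
  have hall : σ.support = Finset.univ := Finset.eq_univ_of_card _ (by rw [hsupp]; rfl)
  have : e (QuotientGroup.mk t) ∈ σ.support := hall ▸ Finset.mem_univ _
  rw [Perm.mem_support, ← hg] at this
  apply this
  show e ((MulAction.toPermHom ↥(alternatingGroup (Fin 6)) (↥(alternatingGroup (Fin 6)) ⧸ K) g) (e.symm (e (QuotientGroup.mk t)))) = e (QuotientGroup.mk t)
  rw [e.symm_apply_apply]
  exact congrArg e hfix

end Alternating

end Cfsg.Agent.H52.Derange
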