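import Mathlib
import Cfsg.Agent.S2119
import Cfsg.Agent.H80.PrimeOrderPerms
import Cfsg.Agent.H81.TwoPrimes
import Cfsg.Agent.H52.Derange.Arith
import Cfsg.Agent.H52.Derange.Perm

/-! Derangements of largest prime order in primitive groups with alternating socle. -/

set_option autoImplicit false

namespace Cfsg.Agent.H52.Derange

open Equiv MulAction
open scoped Pointwise

theorem exists_even_image {m : ℕ} (hm : 3 ≤ m) (s t : Finset (Fin m)) (hst : s.card = t.card) :
    ∃ σ ∈ alternatingGroup (Fin m), σ • s = t := by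
  classical
  haveI := Set.powersetCard.isPretransitive (α := Fin m) (n := s.card)
  obtain ⟨σ, hσ⟩ := MulAction.exists_smul_eq (Perm (Fin m))
    (⟨s, rfl⟩ : Set.powersetCard (Fin m) s.card) ⟨t, hst.symm⟩
  have hσ' : σ • s = t := by
    have := congrArg Subtype.val hσ
    rwa [Set.powersetCard.coe_smul] at this
  rcases Int.units_eq_one_or (Perm.sign σ) with h | h
  · exact ⟨σ, h, hσ'⟩
  obtain ⟨a, b, hab, hiff⟩ : ∃ a b : Fin m, a ≠ b ∧ (a ∈ t ↔ b ∈ t) := by
    by_cases h2 : 2 ≤ t.card
    · obtain ⟨a, ha, b, hb, hab⟩ := Finset.one_lt_card.1 h2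
      exact ⟨a, b, hab, by simp [ha, hb]⟩
    · have : 1 < tᶜ.card := by rw [Finset.card_compl, Fintype.card_fin]; omega
      obtain ⟨a, ha, b, hb, hab⟩ := Finset.one_lt_card.1 this
      rw [Finset.mem_compl] at ha hb
      exact ⟨a, b, hab, by simp [ha, hb]⟩
  refine ⟨swap a b * σ, ?_, ?_⟩
  · rw [Perm.mem_alternatingGroup, map_mul, Perm.sign_swap hab, h]; decide
  · rw [mul_smul, hσ']
    refine Finset.eq_of_subset_of_card_le ?_ (Finset.card_smul_finset _ _).ge
    intro x hx
    obtain ⟨y, hy, rfl⟩ := Finset.mem_smul_finset.1 hx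
    rw [Perm.smul_def, swap_apply_def]
    split_ifs with h1 h2
    · exact hiff.1 (h1 ▸ hy)
    · exact hiff.2 (h2 ▸ hy)
    · exact hy

/-- An even permutation of order `r` without invariant `k`-set, for `r` the largest prime divisor
of `m.choose k`. -/
theorem exists_even_no_invariant {m k r : ℕ} (hm : 5 ≤ m) (hk : 1 ≤ k) (hkm : 2 * k ≤ m)
    (hr : r.Prime) (hrd : r ∣ m.choose k)
    (hmax : ∀ s : ℕ, s.Prime → s ∣ m.choose k → s ≤ r) :
    ∃ σ ∈ alternatingGroup (Fin m), orderOf σ = r ∧
      ∀ s : Finset (Fin m), s.card = k → σ • s ≠ s := by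
  classical
  obtain ⟨hmod, h2⟩ := mod_lt_of_max_prime hk hkm hr hrd hmax
  have hnot := (H80.forall_exists_invariant_iff (α := Fin m) hr (Fintype.card_fin m) hrd (by omega)).not.2
    (by omega)
  push Not at hnot
  obtain ⟨σ, hσ, hinv⟩ := hnot
  refine ⟨σ, ?_, hσ, fun s hs he => hinv s hs he⟩
  rw [Perm.mem_alternatingGroup]
  by_cases hr2 : r = 2
  · subst hr2
    obtain rfl : k = 1 := (h2 rfl).resolve_right (by omega)
    rw [Nat.choose_one_right] at hmax
    have hall : σ.support = Finset.univ := by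
      refine Finset.eq_univ_of_forall fun x => Perm.mem_support.2 fun hx => ?_
      exact hinv {x} (Finset.card_singleton x) (by simp [hx])
    have hc := H80.card_support_eq_mul hr hσ
    rw [hall, Finset.card_univ, Fintype.card_fin] at hc
    have hev : Even σ.cycleFactorsFinset.card := by
      by_contra hodd
      rw [Nat.not_even_iff] at hodd
      obtain ⟨p, hp, hpd⟩ := Nat.exists_prime_and_dvd (n := σ.cycleFactorsFinset.card) (by omega)
      have hle := hmax p hp (hc ▸ hpd.mul_left 2)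
      have := hp.two_le
      obtain rfl : p = 2 := by omega
      omega
    rw [Perm.sign_of_cycleType, Perm.sum_cycleType, hall, Finset.card_univ, Fintype.card_fin,
      show Multiset.card σ.cycleType = σ.cycleFactorsFinset.card by rw [Perm.cycleType_def, Multiset.card_map]; rfl]
    refine Even.neg_one_pow ?_
    exact (show Even m from ⟨σ.cycleFactorsFinset.card, by omega⟩).add hev
  · have hodd := hr.eq_two_or_odd'.resolve_left hr2
    have h : Perm.sign σ ^ r = 1 := by rw [← map_pow, ← hσ, pow_orderOf_eq_one, map_one]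
    rcases Int.units_eq_one_or (Perm.sign σ) with h' | h'
    · exact h'
    · rw [h', hodd.neg_one_pow] at h; exact absurd h (by decide)

/-- Reformulation for a transitive normal subgroup: it is enough to avoid the point stabiliser. -/
theorem derangement_of_normal {G Ω : Type*} [Group G] [MulAction G Ω] (T : Subgroup G)
    [IsPretransitive T Ω] (ω₀ : Ω) {r : ℕ} (g : T) (hg : orderOf g = r)
    (h : ∀ t : T, t⁻¹ * g * t ∉ stabilizer T ω₀) :
    ∃ x : G, orderOf x = r ∧ ∀ ω : Ω, x • ω ≠ ω := by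
  refine ⟨(g : G), by rw [Subgroup.orderOf_coe, hg], fun ω he => ?_⟩
  obtain ⟨t, rfl⟩ := MulAction.exists_smul_eq T ω₀ ω
  apply h t
  rw [mem_stabilizer_iff, mul_smul, mul_smul]
  have h' : g • (t • ω₀) = t • ω₀ := he
  rw [h', inv_smul_smul]

theorem main {G Ω : Type*} [Group G] [Finite G] [MulAction G Ω] [FaithfulSMul G Ω] [Finite Ω]
    (T : Subgroup G) (hT : T.Normal) (hTc : Subgroup.centralizer (T : Set G) = ⊥) (m : ℕ)
    (hm : 5 ≤ m) (eT : ↥T ≃* ↥(alternatingGroup (Fin m))) (hprim : MulAction.IsPreprimitive G Ω)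
    (hΩ : 2 ≤ Nat.card Ω) (r : ℕ) (hr : r.Prime) (hrd : r ∣ Nat.card Ω)
    (hmax : ∀ s : ℕ, s.Prime → s ∣ Nat.card Ω → s ≤ r) :
    ∃ g : G, orderOf g = r ∧ ∀ ω : Ω, g • ω ≠ ω := by
  classical
  haveI := hT
  haveI := hprim
  haveI : Nontrivial Ω := Finite.one_lt_card_iff_nontrivial.1 hΩ
  have ω₀ : Ω := Classical.arbitrary Ω
  set A := alternatingGroup (Fin m) with hA
  have hAcard : 2 * Nat.card A = m.factorial := card_alternatingGroup_fin m (by omega)
  haveI hTtrans : IsPretransitive T Ω := by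
    refine MulAction.IsQuasiPreprimitive.isPretransitive_of_normal ?_
    intro hfix
    have hbot : T = ⊥ := by
      refine (Subgroup.eq_bot_iff_forall T).2 fun t ht => ?_
      refine eq_of_smul_eq_smul (α := Ω) fun a => ?_
      have ha : a ∈ fixedPoints T Ω := hfix ▸ Set.mem_univ a
      rw [one_smul]
      exact ha ⟨t, ht⟩
    have := Nat.card_congr eT.toEquiv
    rw [hbot, Subgroup.card_bot] at this
    have h120 : (5).factorial ≤ m.factorial := Nat.factorial_le hm
    norm_num [Nat.factorial] at h120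
    omega
  set K : Subgroup A := (stabilizer T ω₀).map (eT : ↥T →* A) with hKdef
  have hKidx : K.index = Nat.card Ω := by
    rw [hKdef, Subgroup.index_map_equiv, index_stabilizer_of_transitive]
  have hKne : K ≠ ⊤ := fun h => by rw [h, Subgroup.index_top] at hKidx; omega
  have done : ∀ g : A, orderOf g = r → (∀ t : A, t⁻¹ * g * t ∉ K) →
      ∃ x : G, orderOf x = r ∧ ∀ ω : Ω, x • ω ≠ ω := by
    intro g hg h
    refine derangement_of_normal T ω₀ (eT.symm g) (by rw [MulEquiv.orderOf_eq, hg]) fun t ht => h (eT t) ?_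
    refine ⟨_, ht, ?_⟩
    simp
  have hprod : Nat.card K * Nat.card Ω = Nat.card A := hKidx ▸ Subgroup.card_mul_index K
  have hrA : r ∣ Nat.card A := hrd.trans (Dvd.intro_left _ hprod)
  have hrm : r ≤ m := (hr.dvd_factorial).1 (hAcard ▸ hrA.mul_left 2)
  by_cases hs : ∃ s : ℕ, s.Prime ∧ m < 2 * s ∧ s ≤ m ∧ ¬ s ∣ Nat.card K
  · obtain ⟨s, hsp, hms, hsm, hsK⟩ := hs
    have hsA : s ∣ Nat.card A := by
      have h2 : s ∣ 2 * Nat.card A := hAcard ▸ hsp.dvd_factorial.2 hsm
      refine (hsp.dvd_mul.1 h2).resolve_left fun h => ?_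
      have := Nat.le_of_dvd (by norm_num) h
      omega
    have hsr : s ≤ r := hmax s hsp ((hsp.dvd_mul.1 (hprod ▸ hsA)).resolve_left hsK)
    haveI := Fact.mk hr
    obtain ⟨g, hg⟩ := exists_prime_orderOf_dvd_card' r hrA
    refine done g hg fun t ht => ?_
    have hrK : r ∣ Nat.card K := by
      have := Subgroup.orderOf_dvd_natCard (x := t⁻¹ * g * t) K ht
      rwa [show orderOf (t⁻¹ * g * t) = orderOf g from
        (MulEquiv.orderOf_eq (MulAut.conj t⁻¹) g) ▸ by simp, hg] at this
    have hr2 : r * r ∣ m.factorial := hAcard ▸ (hprod ▸ Nat.mul_dvd_mul hrK hrd).mul_left 2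
    have hfac := (hr.pow_dvd_factorial_iff (n := m) (b := m + 1) (r := 2)
      (Nat.lt_succ_of_le (Nat.log_le_self _ _))).1 (by rwa [pow_two])
    rw [Finset.sum_eq_single 1] at hfac
    · rw [pow_one] at hfac
      have := (Nat.le_div_iff_mul_le hr.pos).1 hfac
      omega
    · intro i hi hi1
      have : 2 ≤ i := by have := (Finset.mem_Ico.1 hi).1; omega
      refine Nat.div_eq_of_lt (lt_of_lt_of_le ?_ (Nat.pow_le_pow_right hr.pos this))
      nlinarith
    · intro h; exact absurd (Finset.mem_Ico.2 ⟨le_rfl, by omega⟩) h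
  push Not at hs
  rcases (show m = 5 ∨ m = 6 ∨ m = 7 ∨ 8 ≤ m by omega) with rfl | rfl | rfl | hm8
  · exact absurd (hs 5 (by norm_num) (by norm_num) (by norm_num))
      (alt_five K hKne (hs 3 (by norm_num) (by norm_num) (by norm_num)))
  · rcases alt_six K hKne (hs 5 (by norm_num) (by norm_num) (by norm_num)) with ⟨h3, h3i⟩ | h6
    · have hr5 : r = 3 := by
        have h360 : Nat.card A = 360 := by rw [show Nat.factorial 6 = 720 from rfl] at hAcard; omega
        have hle : 3 ≤ r := hmax 3 Nat.prime_three (hKidx ▸ h3i)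
        have h5 : ¬ 5 ∣ Nat.card Ω := fun h5 => by
          have : 5 * 5 ∣ 360 :=
            h360 ▸ hprod ▸ Nat.mul_dvd_mul (hs 5 (by norm_num) (by norm_num) (by norm_num)) h5
          norm_num at this
        interval_cases r
        · rfl
        · norm_num at hr
        · exact absurd hrd h5
        · norm_num at hr
      haveI := Fact.mk hr
      obtain ⟨g, hg⟩ := exists_prime_orderOf_dvd_card' r hrA
      refine done g hg fun t ht => h3 ?_
      have := Subgroup.orderOf_dvd_natCard (x := t⁻¹ * g * t) K ht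
      rwa [show orderOf (t⁻¹ * g * t) = orderOf g from
        (MulEquiv.orderOf_eq (MulAut.conj t⁻¹) g) ▸ by simp, hg, hr5] at this
    · obtain ⟨g, hg, h⟩ := alt_six_index_six K h6
      have hr3 : r = 3 := by
        have h36 : r ∣ 6 := h6 ▸ hKidx ▸ hrd
        have h3 : 3 ≤ r := hmax 3 Nat.prime_three (by rw [← hKidx, h6]; norm_num)
        have := Nat.le_of_dvd (by norm_num) h36
        interval_cases r <;> first | rfl | (exfalso; revert h36 hr; norm_num)
      exact done g (hr3 ▸ hg) h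
  · exact absurd (hs 7 (by norm_num) (by norm_num) (by norm_num))
      (alt_seven K hKne (hs 5 (by norm_num) (by norm_num) (by norm_num)))
  -- degree at least eight: the embedding into the symmetric group
  obtain ⟨s, hsp, hms, hsm⟩ : ∃ s : ℕ, s.Prime ∧ m < 2 * s ∧ s + 3 ≤ m := by
    by_cases h17 : 17 ≤ m
    · obtain ⟨p, q, hp, -, h1, h2, h3⟩ := H81.exists_two_primes m h17
      exact ⟨p, hp, h1, by omega⟩
    rcases (show m < 10 ∨ (10 ≤ m ∧ m < 14) ∨ 14 ≤ m by omega) with h | h | h
    · exact ⟨5, by norm_num, by omega, by omega⟩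
    · exact ⟨7, by norm_num, by omega, by omega⟩
    · exact ⟨11, by norm_num, by omega, by omega⟩
  have hsK := hs s hsp hms (by omega)
  let aut : Perm (Fin m) ≃* MulAut A :=
    MulEquiv.ofBijective MulAut.conjNormal (S2119.result m (by omega) (by omega))
  let ψ : G →* Perm (Fin m) :=
    aut.symm.toMonoidHom.comp ((MulAut.congr eT).toMonoidHom.comp (MulAut.conjNormal (H := T)))
  have hψinj : Function.Injective ψ := by
    refine aut.symm.injective.comp ((MulAut.congr eT).injective.comp ?_)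
    refine (injective_iff_map_eq_one _).2 fun g hg => ?_
    have : g ∈ Subgroup.centralizer (T : Set G) := by
      intro x hx
      have h := congrArg Subtype.val (MulEquiv.congr_fun hg ⟨x, hx⟩)
      rw [MulAut.conjNormal_apply] at h
      exact (mul_inv_eq_iff_eq_mul.1 h).symm
    rwa [hTc, Subgroup.mem_bot] at this
  have hψT : ∀ t : T, ψ t = (eT t : Perm (Fin m)) := by
    intro t
    show aut.symm _ = _
    rw [MulEquiv.symm_apply_eq]
    refine MulEquiv.ext fun a => Subtype.ext ?_
    show (eT (MulAut.conjNormal (t : G) (eT.symm a)) : Perm (Fin m)) =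
      (MulAut.conjNormal ((eT t : A) : Perm (Fin m)) a : Perm (Fin m))
    have : MulAut.conjNormal (t : G) (eT.symm a) = t * eT.symm a * t⁻¹ := Subtype.ext (by simp)
    rw [this, map_mul, map_mul, map_inv, eT.apply_symm_apply, MulAut.conjNormal_apply]
    rfl
  set H := stabilizer G ω₀ with hH
  have hTH : ¬ T ≤ H := by
    intro h
    obtain ⟨ω, hω⟩ := exists_ne ω₀
    obtain ⟨t, ht⟩ := MulAction.exists_smul_eq T ω₀ ω
    exact hω (ht ▸ h t.2)
  have hKmem : ∀ a : A, a ∈ K ↔ ((eT.symm a : T) : G) ∈ H := by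
    intro a
    rw [hKdef]
    exact ⟨fun ⟨t, ht, he⟩ => by subst he; rw [show eT.symm ((eT : ↥T →* A) t) = t from eT.symm_apply_apply t]; exact ht, fun h => ⟨eT.symm a, h, eT.apply_symm_apply a⟩⟩
  set X := H.map ψ with hX
  by_cases htr : IsPretransitive X (Fin m)
  · exfalso
    haveI := Fact.mk hsp
    obtain ⟨⟨a, ha⟩, hord⟩ := exists_prime_orderOf_dvd_card' s hsK
    rw [Subgroup.orderOf_mk] at hord
    have haX : (a : Perm (Fin m)) ∈ X := ⟨_, (hKmem a).1 ha, by rw [hψT, eT.apply_symm_apply]⟩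
    have hle := alternatingGroup_le_of_large htr hsp (by rw [Subgroup.orderOf_coe, hord]) haX hms hm hsm
    refine hTH fun t ht => ?_
    obtain ⟨h, hh, he⟩ := hle (eT ⟨t, ht⟩).2
    rw [← hψT ⟨t, ht⟩] at he
    exact (show h = t from hψinj he) ▸ hh
  obtain ⟨a, b, hab⟩ : ∃ a b : Fin m, ∀ h ∈ H, ψ h a ≠ b := by
    by_contra hno
    push Not at hno
    refine htr ⟨fun a b => ?_⟩
    obtain ⟨h, hh, he⟩ := hno a b
    exact ⟨⟨ψ h, ⟨h, hh, rfl⟩⟩, he⟩
  set D₀ : Finset (Fin m) := Finset.univ.filter (fun y => ∃ h ∈ H, ψ h a = y) with hD₀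
  have hinv : ∀ h ∈ H, ∀ y, y ∈ D₀ ↔ ψ h y ∈ D₀ := by
    intro h hh y
    simp only [hD₀, Finset.mem_filter, Finset.mem_univ, true_and]
    constructor
    · rintro ⟨g, hg, rfl⟩
      exact ⟨h * g, H.mul_mem hh hg, by rw [map_mul, Perm.mul_apply]⟩
    · rintro ⟨g, hg, he⟩
      refine ⟨h⁻¹ * g, H.mul_mem (H.inv_mem hh) hg, ?_⟩
      rw [map_mul, Perm.mul_apply, he, map_inv]
      exact (ψ h).symm_apply_apply y
  obtain ⟨D, hD1, hD2, hDinv⟩ : ∃ D : Finset (Fin m), 1 ≤ D.card ∧ 2 * D.card ≤ m ∧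
      ∀ h ∈ H, ψ h • D = D := by
    have ha : a ∈ D₀ := Finset.mem_filter.2 ⟨Finset.mem_univ _, 1, H.one_mem, by rw [map_one]; rfl⟩
    have hb : b ∉ D₀ := fun hb => by
      obtain ⟨h, hh, he⟩ := (Finset.mem_filter.1 hb).2
      exact hab h hh he
    have key : ∀ D : Finset (Fin m), (∀ h ∈ H, ∀ y, y ∈ D → ψ h y ∈ D) → ∀ h ∈ H, ψ h • D = D := by
      intro D hD h hh
      refine Finset.eq_of_subset_of_card_le (fun y hy => ?_) (Finset.card_smul_finset _ _).ge
      obtain ⟨z, hz, rfl⟩ := Finset.mem_smul_finset.1 hy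
      exact hD h hh z hz
    have h1 : 1 ≤ D₀.card := Finset.card_pos.2 ⟨a, ha⟩
    have h2 : 1 ≤ D₀ᶜ.card := Finset.card_pos.2 ⟨b, Finset.mem_compl.2 hb⟩
    have h3 := Finset.card_compl_add_card D₀
    rw [Fintype.card_fin] at h3
    rcases le_total D₀.card D₀ᶜ.card with hle | hle
    · exact ⟨D₀, h1, by omega, key D₀ fun h hh y hy => (hinv h hh y).1 hy⟩
    · exact ⟨D₀ᶜ, h2, by omega, key _ fun h hh y hy => by
        rw [Finset.mem_compl] at hy ⊢; exact fun hc => hy ((hinv h hh y).2 hc)⟩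
  set St : Subgroup G := (stabilizer (Perm (Fin m)) D).comap ψ with hSt
  have hHSt : H = St := by
    have hle : H ≤ St := fun h hh => hDinv h hh
    rcases (IsPreprimitive.isCoatom_stabilizer_of_isPreprimitive (G := G) ω₀).le_iff.1 hle with h | h
    · exfalso
      obtain ⟨x, hx⟩ : ∃ x, x ∉ D := by
        by_contra hno
        push Not at hno
        rw [Finset.eq_univ_of_forall hno, Finset.card_univ, Fintype.card_fin] at hD2
        omega
      obtain ⟨y, hy⟩ := Finset.card_pos.1 hD1
      obtain ⟨σ, hσ, he⟩ := exists_even_image (by omega) D (insert x (D.erase y)) (by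
        rw [Finset.card_insert_of_notMem (fun h => hx (Finset.mem_of_mem_erase h)), Finset.card_erase_of_mem hy]
        omega)
      have hmem : ((eT.symm ⟨σ, hσ⟩ : T) : G) ∈ St := by rw [h]; trivial
      rw [hSt, Subgroup.mem_comap, hψT, eT.apply_symm_apply, mem_stabilizer_iff] at hmem
      have : x ∈ D := by
        rw [← hmem]
        show x ∈ σ • D
        rw [he]
        exact Finset.mem_insert_self _ _
      exact hx this
    · exact h.symm
  have hKD : ∀ g : A, g ∈ K ↔ (g : Perm (Fin m)) • D = D := by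
    intro g
    rw [hKmem, hHSt, hSt, Subgroup.mem_comap, hψT, eT.apply_symm_apply, mem_stabilizer_iff]
  have hidx : K.index = m.choose D.card := by
    haveI : IsPretransitive A (Set.powersetCard (Fin m) D.card) := ⟨fun u v => by
      obtain ⟨σ, hσ, he⟩ := exists_even_image (by omega) (u : Finset (Fin m)) (v : Finset (Fin m))
        (u.2.trans v.2.symm)
      exact ⟨⟨σ, hσ⟩, Subtype.ext he⟩⟩
    have hK : K = stabilizer A (⟨D, rfl⟩ : Set.powersetCard (Fin m) D.card) := by
      ext g
      rw [hKD, mem_stabilizer_iff]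
      exact ⟨fun h => Subtype.ext h, fun h => congrArg Subtype.val h⟩
    rw [hK, index_stabilizer_of_transitive, Set.powersetCard.card, Nat.card_eq_fintype_card,
      Fintype.card_fin]
  rw [← hKidx, hidx] at hrd
  obtain ⟨σ, hσA, hσr, hσD⟩ := exists_even_no_invariant (by omega) hD1 hD2 hr hrd
    (fun q hq hqd => hmax q hq (by rwa [← hKidx, hidx]))
  refine done ⟨σ, hσA⟩ (by rw [Subgroup.orderOf_mk, hσr]) fun t ht => ?_
  rw [hKD] at ht
  refine hσD ((t : Perm (Fin m)) • D) (Finset.card_smul_finset _ _) ?_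
  have h := congrArg (fun E : Finset (Fin m) => (t : Perm (Fin m)) • E) ht
  simp only [Subgroup.coe_mul, Subgroup.coe_inv, mul_smul, smul_inv_smul] at h
  exact h

end Cfsg.Agent.H52.Derange
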